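import Mathlib

/-!
Finite checks inside the alternating group of degree five, and the permutation action on five points.
-/

set_option autoImplicit false

namespace CfsgLib.HJOrder

abbrev A5 := ↥(alternatingGroup (Fin 5))

abbrev app (σ : A5) (i : Fin 5) : Fin 5 := (σ : Equiv.Perm (Fin 5)) i

/-- Classes of the sixteen cosets: the trivial one, the five points, the ten pairs. -/
abbrev Cls := Option {p : Fin 5 × Fin 5 // p.1 ≤ p.2}

/-- The class is fixed by `σ` as a set of points. -/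
abbrev ClsFixed (σ : A5) : Cls → Prop
  | none => True
  | some p => (app σ p.1.1 = p.1.1 ∧ app σ p.1.2 = p.1.2) ∨ (app σ p.1.1 = p.1.2 ∧ app σ p.1.2 = p.1.1)

instance (σ : A5) : DecidablePred (ClsFixed σ) := fun c => by
  cases c <;> unfold ClsFixed <;> infer_instance

theorem two_transitive_aux : ∀ i j l : Fin 5, i ≠ j → l ≠ i → l ≠ j → ∃ σ : A5,
    ((app σ i = i ∧ app σ j = j) ∨ (app σ i = j ∧ app σ j = i)) ∧ app σ l ≠ l := by decide +kernel

theorem pair_aux : ∀ i j k l : Fin 5, i < j → k < l → (i, j) ≠ (k, l) → ∃ σ : A5,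
    ((app σ i = i ∧ app σ j = j) ∨ (app σ i = j ∧ app σ j = i)) ∧
    ((app σ k = k ∧ app σ l ≠ l) ∨ (app σ l = l ∧ app σ k ≠ k) ∨
      (app σ k = l ∧ app σ l ≠ k) ∨ (app σ l = k ∧ app σ k ≠ l)) := by decide +kernel

theorem inv_fix_aux : ∀ σ : A5, σ * σ = 1 → σ ≠ 1 → ∀ f : Fin 5, app σ f = f → ∃ c : A5,
    c ^ 3 = 1 ∧ app c f = f ∧ (c⁻¹ * σ) ^ 3 = 1 ∧ app (c⁻¹ * σ) f = f := by decide +kernel

theorem inv_unique_fix : ∀ σ : A5, σ * σ = 1 → σ ≠ 1 → ∀ i j : Fin 5, app σ i = i → app σ j = j → i = j := by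
  decide +kernel

theorem involution_order : ∀ d : A5, d ^ 15 = 1 ∨ d * d = 1 := by decide +kernel

theorem count_z : Nat.card {r : Fin 5 × A5 × Cls //
    r.2.1 * r.2.1 = 1 ∧ r.2.1 ≠ 1 ∧ ClsFixed r.2.1 r.2.2 ∧ app r.2.1 r.1 ≠ r.1} = 240 := by
  rw [Nat.card_eq_fintype_card]
  decide +kernel

theorem count_t : Nat.card {r : A5 × A5 //
    r.1 ≠ 1 ∧ r.1 * r.1 = 1 ∧ r.2 * r.2 = 1 ∧ (r.1 * r.2) ^ 15 = 1} = 195 := by
  rw [Nat.card_eq_fintype_card]
  decide +kernel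

end CfsgLib.HJOrder
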