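import Cfsg.Agent.HJOrder.Five

/-!
Counting pairs of involutions in the two involution centralisers of Hall-Janko type.
-/

set_option autoImplicit false
set_option maxHeartbeats 1000000

namespace CfsgLib.HJOrder

theorem commute_of_zpowers {G : Type*} [Group G] {x y w : G} (hx : x * x = 1) (hy : y * y = 1) (hw : w * w = 1)
    (h : w ∈ Subgroup.zpowers (x * y)) : x * w = w * x ∧ y * w = w * y := by
  obtain ⟨n, rfl⟩ := h
  simp only at hw ⊢
  have hxi : x⁻¹ = x := inv_eq_of_mul_eq_one_right hx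
  have hyi : y⁻¹ = y := inv_eq_of_mul_eq_one_right hy
  have hwi : ((x * y) ^ n)⁻¹ = (x * y) ^ n := inv_eq_of_mul_eq_one_right hw
  have e1 : x * (x * y) * x⁻¹ = (x * y)⁻¹ := by rw [mul_inv_rev, hxi, hyi, ← mul_assoc x x, hx, one_mul]
  have e2 : y * (x * y) * y⁻¹ = (x * y)⁻¹ := by
    rw [mul_inv_rev, hxi, hyi, mul_assoc, mul_assoc, hy, mul_one]
  constructor
  · have h1 : x * (x * y) ^ n * x⁻¹ = (x * y) ^ n := by rw [← conj_zpow, e1, inv_zpow, hwi]
    exact mul_inv_eq_iff_eq_mul.1 h1
  · have h1 : y * (x * y) ^ n * y⁻¹ = (x * y) ^ n := by rw [← conj_zpow, e2, inv_zpow, hwi]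
    exact mul_inv_eq_iff_eq_mul.1 h1

/-- Pairs of involutions in a group `V × A₅`. -/
theorem count_centralizer_t {G : Type*} [Group G] [Finite G] {t : G} (ht : t * t = 1) (ht1 : t ≠ 1)
    (V B : Subgroup G) (hcomm : ∀ a ∈ V, ∀ b ∈ B, a * b = b * a) (hdisj : V ⊓ B = ⊥)
    (hV2 : ∀ v ∈ V, v * v = 1) (htV : t ∈ V) (φ : A5 ≃* B) :
    Nat.card {q : G × G // (q.1 ∈ B ∧ q.1 * q.1 = 1 ∧ q.1 ≠ 1) ∧
      (q.2 ∈ V ⊔ B ∧ q.2 * q.2 = 1 ∧ q.2 ∉ B) ∧ t ∈ Subgroup.zpowers (q.1 * q.2)} = 195 := by
  have huniq : ∀ v ∈ V, ∀ v' ∈ V, ∀ b ∈ B, ∀ b' ∈ B, v * b = v' * b' → v = v' ∧ b = b' := by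
    intro v hv v' hv' b hb b' hb' h
    have h1 : v'⁻¹ * v = b' * b⁻¹ := by
      rw [eq_mul_inv_iff_mul_eq, mul_assoc, h, inv_mul_cancel_left]
    have hm : v'⁻¹ * v ∈ V ⊓ B :=
      Subgroup.mem_inf.2 ⟨mul_mem (inv_mem hv') hv, by rw [h1]; exact mul_mem hb' (inv_mem hb)⟩
    rw [hdisj, Subgroup.mem_bot, inv_mul_eq_one] at hm
    exact ⟨hm.symm, mul_left_cancel (hm ▸ h : v * b = v * b')⟩
  have htB : t ∉ B := fun h => ht1 (by simpa [hdisj] using (Subgroup.mem_inf.2 ⟨htV, h⟩ : t ∈ V ⊓ B))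
  have hdec : ∀ g ∈ V ⊔ B, ∃ v ∈ V, ∃ b ∈ B, g = v * b := by
    intro g hg
    let W : Subgroup G :=
      { carrier := {g | ∃ v ∈ V, ∃ b ∈ B, g = v * b}
        one_mem' := ⟨1, one_mem _, 1, one_mem _, (mul_one 1).symm⟩
        mul_mem' := by
          rintro _ _ ⟨v, hv, b, hb, rfl⟩ ⟨v', hv', b', hb', rfl⟩
          refine ⟨v * v', mul_mem hv hv', b * b', mul_mem hb hb', ?_⟩
          rw [mul_assoc, ← mul_assoc b, ← hcomm v' hv' b hb]; group
        inv_mem' := by
          rintro _ ⟨v, hv, b, hb, rfl⟩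
          exact ⟨v⁻¹, inv_mem hv, b⁻¹, inv_mem hb,
            by rw [mul_inv_rev, ← hcomm _ (inv_mem hv) _ (inv_mem hb)]⟩ }
    have h1 : V ≤ W := fun v hv => ⟨v, hv, 1, one_mem _, (mul_one v).symm⟩
    have h2 : B ≤ W := fun b hb => ⟨1, one_mem _, b, hb, (one_mul b).symm⟩
    exact (sup_le h1 h2 : V ⊔ B ≤ W) hg
  rw [← count_t]
  symm
  refine Nat.card_eq_of_bijective (fun r => ⟨((φ r.1.1 : G), t * (φ r.1.2 : G)), ?_, ?_, ?_⟩) ⟨?_, ?_⟩
  · obtain ⟨h1, h2, -, -⟩ := r.2
    refine ⟨(φ r.1.1).2, ?_, fun h => h1 (φ.injective (Subtype.ext (by rw [map_one]; exact h)))⟩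
    show (φ r.1.1 : G) * (φ r.1.1 : G) = 1
    rw [← Subgroup.coe_mul, ← map_mul, h2, map_one, Subgroup.coe_one]
  · obtain ⟨-, -, h3, -⟩ := r.2
    refine ⟨mul_mem (Subgroup.mem_sup_left htV) (Subgroup.mem_sup_right (φ r.1.2).2), ?_, fun h => htB ?_⟩
    · show t * (φ r.1.2 : G) * (t * (φ r.1.2 : G)) = 1
      rw [mul_assoc, ← mul_assoc _ t, ← hcomm t htV _ (φ r.1.2).2, mul_assoc, ← Subgroup.coe_mul,
        ← map_mul, h3, map_one, Subgroup.coe_one, mul_one, ht]
    · have := mul_mem h (inv_mem (φ r.1.2).2)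
      rwa [mul_inv_cancel_right] at this
  · obtain ⟨-, -, -, h4⟩ := r.2
    refine Subgroup.mem_zpowers_iff.2 ⟨(15 : ℕ), ?_⟩
    show ((φ r.1.1 : G) * (t * (φ r.1.2 : G))) ^ ((15 : ℕ) : ℤ) = t
    rw [zpow_natCast, ← mul_assoc, ← hcomm t htV _ (φ r.1.1).2, mul_assoc,
      Commute.mul_pow (show Commute t _ from hcomm t htV _ (mul_mem (φ r.1.1).2 (φ r.1.2).2)),
      ← Subgroup.coe_mul, ← map_mul, ← Subgroup.coe_pow, ← map_pow, h4, map_one, Subgroup.coe_one, mul_one,
      show (15 : ℕ) = 2 * 7 + 1 from rfl, pow_succ, pow_mul, pow_two, ht, one_pow, one_mul]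
  · rintro ⟨⟨a, b⟩, _⟩ ⟨⟨a', b'⟩, _⟩ h
    have e1 := congrArg (fun q => (Subtype.val q).1) h
    have e2 := congrArg (fun q => (Subtype.val q).2) h
    simp only [mul_right_inj, SetLike.coe_eq_coe, EmbeddingLike.apply_eq_iff_eq] at e1 e2
    simp [e1, e2]
  · rintro ⟨⟨x, y⟩, ⟨hx, hx2, hx1⟩, ⟨hy, hy2, hyB⟩, htxy⟩
    obtain ⟨v, hv, c, hc, rfl⟩ := hdec y hy
    have hy2' : v * c * (v * c) = 1 := hy2
    rw [mul_assoc, ← mul_assoc c, ← hcomm v hv c hc, mul_assoc, ← mul_assoc v v, hV2 v hv, one_mul] at hy2'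
    obtain ⟨n, hn⟩ := htxy
    simp only at hn
    rw [← mul_assoc, ← hcomm v hv x hx, mul_assoc,
      Commute.mul_zpow (show Commute v _ from hcomm v hv _ (mul_mem hx hc))] at hn
    obtain ⟨hvn, hdn⟩ := huniq _ (zpow_mem hv n) t htV _ (zpow_mem (mul_mem hx hc) n) 1 (one_mem _)
      (by rw [hn, mul_one])
    have hodd : Odd n := by
      rcases Int.even_or_odd n with ⟨k, hk⟩ | h
      · exfalso; refine ht1 ?_
        rw [← hvn, hk, ← two_mul, zpow_mul, show v ^ (2 : ℤ) = 1 by rw [zpow_two, hV2 v hv], one_zpow]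
      · exact h
    have hvt : v = t := by
      obtain ⟨k, hk⟩ := hodd
      rw [← hvn, hk, zpow_add, zpow_mul, show v ^ (2 : ℤ) = 1 by rw [zpow_two, hV2 v hv], one_zpow, one_mul,
        zpow_one]
    subst hvt
    set a := φ.symm ⟨x, hx⟩ with ha
    set b := φ.symm ⟨c, hc⟩ with hb
    have hax : (φ a : G) = x := by rw [ha, MulEquiv.apply_symm_apply]
    have hbc : (φ b : G) = c := by rw [hb, MulEquiv.apply_symm_apply]
    have hab : (a * b) ^ 15 = 1 := by
      rcases involution_order (a * b) with h | h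
      · exact h
      have hd2 : x * c * (x * c) = 1 := by
        rw [← hax, ← hbc, ← Subgroup.coe_mul, ← map_mul, ← Subgroup.coe_mul, ← map_mul, h, map_one,
          Subgroup.coe_one]
      obtain ⟨k, hk⟩ := hodd
      rw [hk, zpow_add, zpow_mul, show (x * c) ^ (2 : ℤ) = 1 by rw [zpow_two, hd2], one_zpow, one_mul,
        zpow_one] at hdn
      have : a * b = 1 := φ.injective (Subtype.ext (by
        rw [map_mul, Subgroup.coe_mul, hax, hbc, hdn, map_one, Subgroup.coe_one]))
      rw [this, one_pow]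
    refine ⟨⟨(a, b), fun h => hx1 (by simp only at h; show x = 1; rw [← hax, h, map_one, Subgroup.coe_one]),
      φ.injective (Subtype.ext ?_), φ.injective (Subtype.ext ?_), hab⟩, ?_⟩
    · rw [map_mul, Subgroup.coe_mul, hax, map_one, Subgroup.coe_one]; exact hx2
    · rw [map_mul, Subgroup.coe_mul, hbc, map_one, Subgroup.coe_one]; exact hy2'
    · simp [hax, hbc]

section Centre

variable {G : Type*} [Group G]

/-- Equal modulo `⟨z⟩`. -/
def Md (z a b : G) : Prop := a = b ∨ a = z * b

variable {z : G} {a b c d : G}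

theorem Md.refl (z a : G) : Md z a a := Or.inl rfl

theorem Md.symm (hz : z * z = 1) (h : Md z a b) : Md z b a := by
  rcases h with h | h
  · exact Or.inl h.symm
  · exact Or.inr (by rw [h, ← mul_assoc, hz, one_mul])

theorem Md.trans (hz : z * z = 1) (h : Md z a b) (h' : Md z b c) : Md z a c := by
  rcases h with rfl | rfl <;> rcases h' with rfl | rfl
  · exact Or.inl rfl
  · exact Or.inr rfl
  · exact Or.inr rfl
  · exact Or.inl (by rw [← mul_assoc, hz, one_mul])

theorem Md.mul (hz : z * z = 1) (hbz : b * z = z * b) (h : Md z a b) (h' : Md z c d) :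
    Md z (a * c) (b * d) := by
  rcases h with rfl | rfl <;> rcases h' with rfl | rfl
  · exact Or.inl rfl
  · exact Or.inr (by rw [← mul_assoc, hbz, mul_assoc])
  · exact Or.inr (mul_assoc _ _ _)
  · exact Or.inl (by rw [mul_assoc, ← mul_assoc b, hbz, ← mul_assoc, ← mul_assoc, hz, one_mul])

theorem Md.cancel_left (hcz : c * z = z * c) (h : Md z (c * a) (c * b)) : Md z a b := by
  rcases h with h | h
  · exact Or.inl (mul_left_cancel h)
  · refine Or.inr (mul_left_cancel (a := c) ?_)
    rw [h, ← mul_assoc c z, hcz, mul_assoc]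

theorem Md.conj (g : G) (hgz : g * z * g⁻¹ = z) (h : Md z a b) : Md z (g * a * g⁻¹) (g * b * g⁻¹) := by
  rcases h with rfl | rfl
  · exact Or.inl rfl
  · refine Or.inr ?_
    calc g * (z * b) * g⁻¹ = (g * z * g⁻¹) * (g * b * g⁻¹) := by group
      _ = _ := by rw [hgz]

theorem commute_of_md (hzb : z * b = b * z) (h : Md z a b) : a * b = b * a := by
  rcases h with rfl | rfl
  · rfl
  · rw [← mul_assoc b z, ← hzb]

end Centre

/-- Pairs of involutions in `2^{1+4}.A₅`. -/
theorem count_centralizer_z {G : Type*} [Group G] [Finite G] {z : G} (hz : z * z = 1) (hz1 : z ≠ 1)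
    (Q K : Subgroup G) (hKQ : K ≤ Subgroup.normalizer (Q : Set G)) (hdisj : K ⊓ Q = ⊥)
    (hQ32 : Nat.card Q = 32) (hzQ : z ∈ Q) (hzc : ∀ g ∈ K ⊔ Q, g * z = z * g)
    (hab : ∀ a ∈ Q, ∀ b ∈ Q, a * b = b * a ∨ a * b = z * (b * a))
    (hsq : ∀ a ∈ Q, a * a = 1 ∨ a * a = z)
    (hZ : ∀ a ∈ Q, (∀ b ∈ Q, b * a = a * b) → a = 1 ∨ a = z)
    (hCQ : ∀ k ∈ K, (∀ q ∈ Q, k * q = q * k) → k = 1) (e : A5 ≃* K) :
    Nat.card {q : G × G // (q.1 ∈ Q ∧ q.1 * q.1 = 1 ∧ q.1 ≠ 1) ∧
      (q.2 ∈ K ⊔ Q ∧ q.2 * q.2 = 1 ∧ q.2 ∉ Q) ∧ z ∈ Subgroup.zpowers (q.1 * q.2)} = 960 := by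
  classical
  haveI := Fintype.ofFinite G
  have hQc : ∀ a ∈ Q, a * z = z * a := fun a ha => hzc a (Subgroup.mem_sup_right ha)
  have hKz : ∀ k ∈ K, k * z * k⁻¹ = z := fun k hk => by
    rw [hzc k (Subgroup.mem_sup_left hk), mul_inv_cancel_right]
  have hKn : ∀ k ∈ K, ∀ a ∈ Q, k * a * k⁻¹ ∈ Q := fun k hk a ha =>
    (Subgroup.mem_normalizer_iff.1 (hKQ hk) a).1 ha
  have hinvmd : ∀ a ∈ Q, Md z a⁻¹ a := fun a ha => by
    rcases hsq a ha with h | h
    · exact Or.inl (inv_eq_of_mul_eq_one_right h)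
    · refine Or.inr (inv_eq_of_mul_eq_one_right ?_)
      rw [← mul_assoc, hQc a ha, mul_assoc, h, hz]
  -- the number of elements squaring to one
  let Qe := {a : G // a ∈ Q}
  let f : Qe → ℤ := fun a => if (a : G) * a = 1 then 1 else -1
  let χ : Qe → Qe → ℤ := fun a b => if (a : G) * b = b * a then 1 else -1
  let m : Qe → Qe → Qe := fun a b => ⟨a * b, mul_mem a.2 b.2⟩
  have hf : ∀ a b, f a * f (m a b) = f b * χ a b := by
    intro a b
    have hzne : z ≠ 1 := hz1
    rcases hab a a.2 b b.2 with h | h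
    · have e1 : ((a : G) * b) * (a * b) = (a * a) * (b * b) := by
        rw [mul_assoc, ← mul_assoc (b : G), ← h]; group
      rcases hsq a a.2 with ha | ha <;> rcases hsq b b.2 with hb | hb <;>
        simp [f, χ, m, ← h, e1, ha, hb, hz, hzne]
    · have e0 : (b : G) * a = z * (a * b) := by rw [h, ← mul_assoc, hz, one_mul]
      have hne : ¬ (a : G) * b = b * a := fun h' => hz1 (mul_eq_right.mp (h' ▸ h).symm)
      have e1 : ((a : G) * b) * (a * b) = z * ((a * a) * (b * b)) := by
        calc ((a : G) * b) * (a * b) = a * ((b : G) * a) * b := by group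
          _ = a * (z * (a * b)) * b := by rw [e0]
          _ = (a * z) * (a * b * b) := by group
          _ = z * ((a * a) * (b * b)) := by rw [hQc a a.2]; group
      rcases hsq a a.2 with ha | ha <;> rcases hsq b b.2 with hb | hb <;>
        simp [f, χ, m, e1, ha, hb, hne, hz, hzne]
  have hsum : ∀ b : Qe, ∑ a, χ a b = if (b : G) = 1 ∨ (b : G) = z then 32 else 0 := by
    intro b
    split_ifs with hb
    · rw [Finset.sum_congr rfl (g := fun _ => (1 : ℤ)) (fun a _ => by
        rcases hb with hb | hb <;> simp [χ, hb, hQc a a.2])]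
      simp [← Nat.card_eq_fintype_card, show Nat.card Qe = 32 from hQ32]
    · obtain ⟨c, hc, hcb⟩ : ∃ c ∈ Q, c * (b : G) ≠ b * c := by
        by_contra! hcc; exact hb (hZ b b.2 hcc)
      have hcb' : c * (b : G) = z * (b * c) := (hab c hc b b.2).resolve_left hcb
      let σ : Qe ≃ Qe :=
        { toFun := fun a => ⟨a * c, mul_mem a.2 hc⟩
          invFun := fun a => ⟨a * c⁻¹, mul_mem a.2 (inv_mem hc)⟩
          left_inv := fun a => Subtype.ext (mul_inv_cancel_right _ _)
          right_inv := fun a => Subtype.ext (inv_mul_cancel_right _ _) }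
      have hflip : ∀ a, χ (σ a) b = - χ a b := by
        intro a
        have hne : ∀ u : G, z * u ≠ u := fun u h' => hz1 (mul_eq_right.mp h')
        rcases hab a a.2 b b.2 with h | h
        · have e1 : (a : G) * c * b = z * (b * (a * c)) := by
            rw [mul_assoc, hcb', ← mul_assoc, hQc a a.2, mul_assoc, ← mul_assoc (a : G), h, mul_assoc]
          have : ¬ (a : G) * c * b = b * (a * c) := by rw [e1]; exact hne _
          simp [χ, σ, h, this]
        · have e1 : (a : G) * c * b = b * (a * c) := by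
            rw [mul_assoc, hcb', ← mul_assoc, hQc a a.2, mul_assoc, ← mul_assoc (a : G), h,
              show z * (z * ((b : G) * a) * c) = (z * z) * (b * (a * c)) by group, hz, one_mul]
          have : ¬ (a : G) * b = b * a := by rw [h]; exact hne _
          simp [χ, σ, e1, this]
      have h1 := σ.sum_comp (fun a => χ a b)
      simp only [hflip, Finset.sum_neg_distrib] at h1
      linarith
  have hT : (∑ a, f a) * (∑ a, f a) = 64 := by
    rw [Finset.sum_mul_sum]
    have h1 : ∀ a, ∑ b, f a * f b = ∑ b, f b * χ a b := by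
      intro a
      let σ : Qe ≃ Qe :=
        { toFun := m a
          invFun := fun b => ⟨(a : G)⁻¹ * b, mul_mem (inv_mem a.2) b.2⟩
          left_inv := fun b => Subtype.ext (inv_mul_cancel_left _ _)
          right_inv := fun b => Subtype.ext (mul_inv_cancel_left _ _) }
      rw [← σ.sum_comp (fun b => f a * f b)]
      exact Finset.sum_congr rfl fun b _ => hf a b
    simp only [h1]
    rw [Finset.sum_comm]
    simp only [← Finset.mul_sum, hsum, mul_ite, mul_zero]
    rw [← Finset.sum_filter]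
    have hset : (Finset.univ.filter fun b : Qe => (b : G) = 1 ∨ (b : G) = z) =
        {(⟨1, one_mem Q⟩ : Qe), ⟨z, hzQ⟩} := by
      ext ⟨b, hb⟩; simp [Qe, Subtype.mk.injEq]
    rw [hset, Finset.sum_pair (fun h => hz1 (congrArg Subtype.val h).symm)]
    simp [f, hz]
  set S := Finset.univ.filter (fun x : G => x ∈ Q ∧ x * x = 1 ∧ x ≠ 1 ∧ x ≠ z) with hSdef
  have hS : ∀ x, x ∈ S ↔ x ∈ Q ∧ x * x = 1 ∧ x ≠ 1 ∧ x ≠ z := fun x => by simp [hSdef]
  have hScard : S.card = 10 ∨ S.card = 18 := by
    set I := Finset.univ.filter (fun a : Qe => (a : G) * a = 1) with hI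
    have hIS : I.card = S.card + 2 := by
      rw [← Finset.card_map (Function.Embedding.subtype _)]
      have : I.map (Function.Embedding.subtype _) = insert 1 (insert z S) := by
        ext x
        simp only [hI, hS, Finset.mem_map, Finset.mem_filter, Finset.mem_univ, true_and,
          Function.Embedding.coe_subtype, Finset.mem_insert]
        constructor
        · rintro ⟨⟨a, ha⟩, h, rfl⟩
          by_cases h1 : a = 1
          · exact Or.inl h1
          by_cases h2 : a = z
          · exact Or.inr (Or.inl h2)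
          exact Or.inr (Or.inr ⟨ha, h, h1, h2⟩)
        · rintro (rfl | rfl | ⟨hx, hx2, -⟩)
          · exact ⟨⟨1, one_mem Q⟩, one_mul 1, rfl⟩
          · exact ⟨⟨_, hzQ⟩, hz, rfl⟩
          · exact ⟨⟨x, hx⟩, hx2, rfl⟩
      rw [this, Finset.card_insert_of_notMem, Finset.card_insert_of_notMem]
      · rw [hS]; simp
      · simp only [Finset.mem_insert, hS, not_or]; exact ⟨hz1.symm, by simp⟩
    have hfs : ∑ a, f a = 2 * (I.card : ℤ) - 32 := by
      simp only [f, Finset.sum_ite, Finset.sum_const, nsmul_eq_mul, mul_one]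
      have := Finset.card_filter_add_card_filter_not (s := Finset.univ) (fun a : Qe => (a : G) * a = 1)
      rw [Finset.card_univ, ← Nat.card_eq_fintype_card, show Nat.card Qe = 32 from hQ32] at this
      rw [← hI] at this ⊢
      push_cast
      omega
    rw [hfs, hIS] at hT
    push_cast at hT
    have h2 : ((S.card : ℤ) - 10) * ((S.card : ℤ) - 18) = 0 := by linarith [hT]
    rcases mul_eq_zero.1 h2 with h | h
    · left; omega
    · right; omega
  -- an element of order five
  haveI : Fact (Nat.Prime 5) := ⟨by norm_num⟩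
  obtain ⟨c5, hc5⟩ := exists_prime_orderOf_dvd_card' (G := A5) 5 (by
    rw [Nat.card_eq_fintype_card]; decide +kernel)
  set k5 : G := (e c5 : G) with hk5def
  have hk5K : k5 ∈ K := (e c5).2
  have hk5o : orderOf k5 = 5 := by rw [hk5def, Subgroup.orderOf_coe, MulEquiv.orderOf_eq, hc5]
  let A := Subgroup.zpowers k5
  have hA5 : IsPGroup 5 A := IsPGroup.of_card (n := 1) (by rw [Nat.card_zpowers, hk5o, pow_one])
  have hAK : ∀ g : A, (g : G) ∈ K := fun g => Subgroup.zpowers_le.2 hk5K g.2
  have hfix5 : ∀ a ∈ Q, k5 * a * k5⁻¹ = a → a = 1 ∨ a = z := by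
    let D : Subgroup G := Q ⊓ Subgroup.centralizer (A : Set G)
    letI : MulAction A Qe :=
      { smul := fun g a => ⟨(g : G) * a * (g : G)⁻¹, hKn _ (hAK g) a a.2⟩
        one_smul := fun a => Subtype.ext (show (1 : G) * a * (1 : G)⁻¹ = a by group)
        mul_smul := fun g h a => Subtype.ext (show ((g : G) * h) * a * ((g : G) * h)⁻¹ =
          g * (h * a * (h : G)⁻¹) * (g : G)⁻¹ by group) }
    have hfp : Nat.card (MulAction.fixedPoints A Qe) = Nat.card D := by
      refine Nat.card_congr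
        { toFun := fun a => ⟨(a.1 : G), a.1.2, Subgroup.mem_centralizer_iff.2 fun g hg =>
            mul_inv_eq_iff_eq_mul.1 (congrArg Subtype.val (a.2 ⟨g, hg⟩))⟩
          invFun := fun a => ⟨⟨(a : G), a.2.1⟩, fun g => Subtype.ext (mul_inv_eq_iff_eq_mul.2
            (Subgroup.mem_centralizer_iff.1 a.2.2 _ g.2))⟩
          left_inv := fun a => rfl
          right_inv := fun a => rfl }
    have hmod := hA5.card_modEq_card_fixedPoints Qe
    rw [hfp, show Nat.card Qe = 32 from hQ32] at hmod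
    have hDdvd : Nat.card D ∣ 32 := hQ32 ▸ Subgroup.card_dvd_of_le inf_le_left
    have hD32 : Nat.card D ≠ 32 := by
      intro h
      have hD : D = Q := Subgroup.eq_of_le_of_card_ge inf_le_left (by rw [hQ32, h])
      have hk1 : k5 = 1 := hCQ _ hk5K fun q hq => Subgroup.mem_centralizer_iff.1
        (hD.symm.le hq).2 k5 (Subgroup.mem_zpowers k5)
      rw [hk1, orderOf_one] at hk5o
      omega
    have hD2 : Nat.card D = 2 := by
      obtain ⟨i, hi, hDi⟩ := (Nat.dvd_prime_pow Nat.prime_two).1 (show Nat.card D ∣ 2 ^ 5 from hDdvd)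
      rw [hDi] at hmod hD32 ⊢
      interval_cases i <;> simp_all [Nat.ModEq]
    intro a ha hka
    have haD : a ∈ D := ⟨ha, Subgroup.mem_centralizer_iff.2 fun g hg => by
      obtain ⟨n, rfl⟩ := Subgroup.mem_zpowers_iff.1 hg
      exact (Commute.zpow_left (mul_inv_eq_iff_eq_mul.1 hka : Commute k5 a) n).eq⟩
    have hzD : z ∈ D := ⟨hzQ, Subgroup.mem_centralizer_iff.2 fun g hg =>
      hzc g (Subgroup.mem_sup_left (hAK ⟨g, hg⟩))⟩
    have hDz : D = Subgroup.zpowers z := (Subgroup.eq_of_le_of_card_ge (Subgroup.zpowers_le.2 hzD) (by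
      rw [hD2, Nat.card_zpowers, orderOf_eq_prime (by rw [pow_two]; exact hz) hz1])).symm
    rw [hDz] at haD
    obtain ⟨n, rfl⟩ := Subgroup.mem_zpowers_iff.1 haD
    rcases Int.even_or_odd n with ⟨j, rfl⟩ | ⟨j, rfl⟩
    · left; rw [← two_mul, zpow_mul, show z ^ (2 : ℤ) = 1 by rw [zpow_two, hz], one_zpow]
    · right; rw [zpow_add, zpow_mul, show z ^ (2 : ℤ) = 1 by rw [zpow_two, hz], one_zpow, one_mul, zpow_one]
  have hSinv : ∀ k ∈ K, ∀ x ∈ S, k * x * k⁻¹ ∈ S := by
    intro k hk x hx
    rw [hS] at hx ⊢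
    obtain ⟨h1, h2, h3, h4⟩ := hx
    refine ⟨hKn k hk x h1, ?_, fun h => h3 (by simpa using h), fun h => h4 ?_⟩
    · calc k * x * k⁻¹ * (k * x * k⁻¹) = k * (x * x) * k⁻¹ := by group
        _ = 1 := by rw [h2]; group
    · exact (MulAut.conj k).injective (h.trans (hKz k hk).symm)
  have hS10 : S.card = 10 := by
    refine hScard.resolve_right fun h18 => ?_
    letI : MulAction A {x // x ∈ S} :=
      { smul := fun g a => ⟨(g : G) * a * (g : G)⁻¹, hSinv _ (hAK g) _ a.2⟩
        one_smul := fun a => Subtype.ext (show (1 : G) * a * (1 : G)⁻¹ = a by group)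
        mul_smul := fun g h a => Subtype.ext (show ((g : G) * h) * a * ((g : G) * h)⁻¹ =
          g * (h * a * (h : G)⁻¹) * (g : G)⁻¹ by group) }
    have hmod := hA5.card_modEq_card_fixedPoints {x // x ∈ S}
    haveI : IsEmpty (MulAction.fixedPoints A {x // x ∈ S}) := ⟨fun ⟨⟨x, hx⟩, hfx⟩ => by
      have h := congrArg Subtype.val (hfx ⟨k5, Subgroup.mem_zpowers k5⟩)
      obtain ⟨h1, -, h3, h4⟩ := (hS x).1 hx
      exact (hfix5 x h1 h).elim h3 h4⟩
    rw [Nat.card_eq_fintype_card, Fintype.card_coe, h18, Nat.card_of_isEmpty] at hmod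
    exact absurd hmod (by decide)
  -- the five points
  obtain ⟨x0, hx0⟩ : ∃ x, x ∈ S := Finset.card_pos.1 (by omega)
  obtain ⟨X, hXdef⟩ : ∃ X : Fin 5 → G, ∀ i, X i = k5 ^ (i : ℕ) * x0 * (k5 ^ (i : ℕ))⁻¹ := ⟨_, fun _ => rfl⟩
  have hXS : ∀ i, X i ∈ S := fun i => by rw [hXdef]; exact hSinv _ (pow_mem hk5K _) _ hx0
  have hX : ∀ i, X i ∈ Q ∧ X i * X i = 1 ∧ X i ≠ 1 ∧ X i ≠ z := fun i => (hS _).1 (hXS i)
  have hXinj : ∀ i j, Md z (X i) (X j) → i = j := by
    have key : ∀ n : ℕ, 0 < n → n < 5 → ¬ Md z (k5 ^ n * x0 * (k5 ^ n)⁻¹) x0 := by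
      intro n hn0 hn5 hmd
      obtain ⟨h1, -, h3, h4⟩ := (hS x0).1 hx0
      set g := k5 ^ n with hg
      have hgK : g ∈ K := pow_mem hk5K n
      have h2n : g ^ 2 * x0 * (g ^ 2)⁻¹ = x0 := by
        rw [show g ^ 2 * x0 * (g ^ 2)⁻¹ = g * (g * x0 * g⁻¹) * g⁻¹ by rw [pow_two]; group]
        rcases hmd with h | h
        · rw [h, h]
        · rw [h, show g * (z * x0) * g⁻¹ = (g * z * g⁻¹) * (g * x0 * g⁻¹) by group, hKz g hgK, h,
            ← mul_assoc, hz, one_mul]
      have hcop : Nat.Coprime (orderOf k5) (2 * n) := by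
        rw [hk5o]
        exact (Nat.coprime_mul_iff_right.2 ⟨by norm_num, (Nat.Prime.coprime_iff_not_dvd (by norm_num)).2
          (fun hd => by have := Nat.le_of_dvd hn0 hd; omega)⟩)
      obtain ⟨j, hj⟩ := exists_pow_eq_self_of_coprime hcop.symm
      have hc : Commute (k5 ^ (2 * n)) x0 := by
        rw [mul_comm, pow_mul]
        exact mul_inv_eq_iff_eq_mul.1 h2n
      have hfx : k5 * x0 * k5⁻¹ = x0 := by
        refine mul_inv_eq_iff_eq_mul.2 ?_
        have := hc.pow_left j
        rw [hj] at this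
        exact this.eq
      exact (hfix5 x0 h1 hfx).elim h3 h4
    have key' : ∀ i j : Fin 5, (i : ℕ) < j → ¬ Md z (X j) (X i) := by
      intro i j hij hmd
      refine key (j - i : ℕ) (by omega) (by omega) ?_
      have := hmd.conj (k5 ^ (i : ℕ))⁻¹ (hKz _ (inv_mem (pow_mem hk5K _)))
      have e1 : k5 ^ ((j : ℕ) - i) = (k5 ^ (i : ℕ))⁻¹ * k5 ^ (j : ℕ) := by
        rw [eq_inv_mul_iff_mul_eq, ← pow_add]; congr 1; omega
      rw [e1]
      convert this using 1 <;> simp only [hXdef] <;> group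
    intro i j hmd
    by_contra hne
    rcases Nat.lt_or_gt_of_ne (fun h => hne (Fin.ext h)) with h | h
    · exact key' i j h (hmd.symm hz)
    · exact key' j i h hmd
  have hpoint : ∀ x ∈ S, ∃ i, Md z x (X i) := by
    intro x hx
    let ι : Fin 5 × Bool → {x // x ∈ S} := fun r =>
      ⟨if r.2 then z * X r.1 else X r.1, by
        split_ifs
        · obtain ⟨h1, h2, h3, h4⟩ := hX r.1
          refine (hS _).2 ⟨mul_mem hzQ h1, ?_, fun h => h4 ?_, fun h => h3 (mul_left_cancel (h.trans (mul_one z).symm))⟩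
          · rw [mul_assoc, ← mul_assoc (X r.1) z, hQc _ h1, mul_assoc, h2, mul_one, hz]
          · rw [← mul_one z, ← h, ← mul_assoc, hz, one_mul]
        · exact hXS _⟩
    have hinj : Function.Injective ι := by
      rintro ⟨i, a⟩ ⟨j, b⟩ h
      have h' := congrArg Subtype.val h
      simp only [ι] at h'
      have hij : i = j := by
        refine hXinj i j ?_
        cases a <;> cases b <;> simp only [Bool.false_eq_true, if_false, if_true] at h'
        · exact Or.inl h'
        · exact Or.inr h'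
        · exact Md.symm hz (Or.inr h'.symm)
        · exact Or.inl (mul_left_cancel h')
      subst hij
      cases a <;> cases b <;> simp only [Bool.false_eq_true, if_false, if_true] at h' ⊢
      · exact absurd (mul_eq_right.mp h'.symm) hz1
      · exact absurd (mul_eq_right.mp h') hz1
    have hbij := (Fintype.bijective_iff_injective_and_card ι).2 ⟨hinj, by simp [hS10]⟩
    obtain ⟨⟨i, b⟩, hib⟩ := hbij.2 ⟨x, hx⟩
    refine ⟨i, ?_⟩
    have := congrArg Subtype.val hib
    simp only [ι] at this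
    cases b
    · exact Or.inl (by simpa using this.symm)
    · exact Or.inr (by simpa using this.symm)
  -- the action on points
  have hact : ∀ k : K, ∀ i, ∃ j, Md z ((k : G) * X i * (k : G)⁻¹) (X j) :=
    fun k i => hpoint _ (hSinv _ k.2 _ (hXS i))
  choose π hπ using hact
  have hπuniq : ∀ (k : K) i j, Md z ((k : G) * X i * (k : G)⁻¹) (X j) → π k i = j :=
    fun k i j h => hXinj _ _ (((hπ k i).symm hz).trans hz h)
  have hπmul : ∀ k l i, π (k * l) i = π k (π l i) := fun k l i => hπuniq _ _ _ (by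
    have h1 := (hπ l i).conj (k : G) (hKz _ k.2)
    have h2 := h1.trans hz (hπ k (π l i))
    convert h2 using 1
    push_cast; group)
  have hπone : ∀ i, π 1 i = i := fun i => hπuniq _ _ _ (Or.inl (by simp))
  let Pi5 : A5 →* Equiv.Perm (Fin 5) :=
    { toFun := fun a =>
        { toFun := π (e a)
          invFun := π (e a)⁻¹
          left_inv := fun i => by rw [← hπmul, inv_mul_cancel, hπone]
          right_inv := fun i => by rw [← hπmul, mul_inv_cancel, hπone] }
      map_one' := Equiv.ext fun i => by show π (e 1) i = i; rw [map_one, hπone]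
      map_mul' := fun a b => Equiv.ext fun i => by
        show π (e (a * b)) i = π (e a) (π (e b) i)
        rw [map_mul, hπmul] }
  have hsimp : IsSimpleGroup A5 := alternatingGroup.isSimpleGroup (by simp)
  have hPi5inj : Function.Injective Pi5 := by
    rw [← MonoidHom.ker_eq_bot_iff]
    refine (hsimp.eq_bot_or_eq_top_of_normal _ Pi5.normal_ker).resolve_right fun h => ?_
    have hmem : c5 ∈ Pi5.ker := by rw [h]; exact Subgroup.mem_top c5
    have hker : Pi5 c5 = 1 := hmem
    have h5 : π (e c5) 0 = 0 := congrArg (fun p : Equiv.Perm (Fin 5) => p 0) hker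
    have := hπ (e c5) 0
    rw [h5] at this
    refine absurd (hXinj 1 0 ?_) (by decide)
    convert this using 1
    simp [hXdef, hk5def]
  have hPi5range : ∀ a, Pi5 a ∈ alternatingGroup (Fin 5) := by
    intro a
    let s : A5 →* ℤˣ := Equiv.Perm.sign.comp Pi5
    rcases hsimp.eq_bot_or_eq_top_of_normal _ s.normal_ker with h | h
    · exfalso
      have h1 := Nat.card_le_card_of_injective s ((MonoidHom.ker_eq_bot_iff s).1 h)
      rw [Nat.card_eq_fintype_card, Nat.card_eq_fintype_card, Fintype.card_units_int] at h1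
      revert h1
      decide +kernel
    · rw [Equiv.Perm.mem_alternatingGroup]
      exact (MonoidHom.mem_ker.1 (h ▸ Subgroup.mem_top a : a ∈ s.ker) :)
  let Φ : A5 ≃* A5 := MulEquiv.ofBijective (Pi5.codRestrict (alternatingGroup (Fin 5)) hPi5range)
    ((Nat.bijective_iff_injective_and_card _).2 ⟨fun a b h => hPi5inj (congrArg Subtype.val h), rfl⟩)
  set el : A5 → G := fun σ => ((e (Φ.symm σ) : K) : G) with heldef
  have helK : ∀ σ, el σ ∈ K := fun σ => (e (Φ.symm σ)).2
  have helmul : ∀ σ τ, el (σ * τ) = el σ * el τ := fun σ τ => by simp [heldef]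
  have helone : el 1 = 1 := by simp [heldef]
  have helinj : Function.Injective el := fun σ τ h =>
    Φ.symm.injective (e.injective (Subtype.ext h))
  have helsurj : ∀ k ∈ K, ∃ σ, el σ = k := fun k hk =>
    ⟨Φ (e.symm ⟨k, hk⟩), by simp [heldef]⟩
  have helact : ∀ σ i, Md z (el σ * X i * (el σ)⁻¹) (X (app σ i)) := by
    intro σ i
    have h := hπ (e (Φ.symm σ)) i
    have : π (e (Φ.symm σ)) i = app σ i := by
      show Pi5 (Φ.symm σ) i = _
      rw [show Pi5 (Φ.symm σ) = ((Φ (Φ.symm σ) : A5) : Equiv.Perm (Fin 5)) from rfl,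
        MulEquiv.apply_symm_apply]
    rwa [this] at h
  -- calculus modulo `z`
  have hmm : ∀ {a b c d : G}, b ∈ Q → Md z a b → Md z c d → Md z (a * c) (b * d) :=
    fun hb h h' => h.mul hz (hQc _ hb) h'
  have hswap : ∀ a ∈ Q, ∀ b ∈ Q, Md z (a * b) (b * a) := fun a ha b hb => hab a ha b hb
  -- distinct points do not commute
  have hnc : ∀ i j, i ≠ j → X i * X j ≠ X j * X i := by
    intro i j hij hc
    have hp : X i * X j ∈ S := by
      refine (hS _).2 ⟨mul_mem (hX i).1 (hX j).1, ?_, fun h => hij (hXinj i j (Or.inl ?_)),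
        fun h => hij (hXinj i j (Or.inr ?_))⟩
      · rw [mul_assoc, ← mul_assoc (X j), ← hc, mul_assoc, (hX j).2.1, mul_one, (hX i).2.1]
      · rw [← mul_one (X i), ← (hX j).2.1, ← mul_assoc, h, one_mul]
      · rw [← h, mul_assoc, (hX j).2.1, mul_one]
    obtain ⟨l, hl⟩ := hpoint _ hp
    have hli : l ≠ i := by
      rintro rfl
      rcases hl with h | h
      · exact (hX j).2.2.1 (mul_eq_left.mp h)
      · rw [← hQc _ (hX l).1] at h
        exact (hX j).2.2.2 (mul_left_cancel h)
    have hlj : l ≠ j := by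
      rintro rfl
      rcases hl with h | h
      · exact (hX i).2.2.1 (mul_eq_right.mp h)
      · exact (hX i).2.2.2 (mul_right_cancel h)
    obtain ⟨σ, hσ, hσl⟩ := two_transitive_aux i j l hij hli hlj
    refine hσl (hXinj _ _ ?_)
    have h1 := ((helact σ l).symm hz).trans hz (((hl.symm hz).conj _ (hKz _ (helK σ))))
    refine h1.trans hz (Md.trans hz ?_ hl)
    rw [show el σ * (X i * X j) * (el σ)⁻¹ = (el σ * X i * (el σ)⁻¹) * (el σ * X j * (el σ)⁻¹) by group]
    refine (hmm (hX _).1 (helact σ i) (helact σ j)).trans hz ?_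
    rcases hσ with ⟨h1, h2⟩ | ⟨h1, h2⟩ <;> rw [h1, h2]
    · exact Md.refl _ _
    · exact Or.inl hc.symm
  have hXsq : ∀ i j, i ≠ j → (X i * X j) * (X i * X j) = z := by
    intro i j hij
    have h := (hab _ (hX j).1 _ (hX i).1).resolve_left (hnc j i hij.symm)
    calc (X i * X j) * (X i * X j) = X i * (X j * X i) * X j := by group
      _ = X i * (z * (X i * X j)) * X j := by rw [h]
      _ = (X i * z) * X i * (X j * X j) := by group
      _ = z := by rw [hQc _ (hX i).1, (hX j).2.1, mul_one, mul_assoc, (hX i).2.1, mul_one]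
  -- representatives of the sixteen classes
  let rep : Cls → G := fun c => match c with
    | none => 1
    | some p => if p.1.1 = p.1.2 then X p.1.1 else X p.1.1 * X p.1.2
  have hrepQ : ∀ c, rep c ∈ Q := by
    rintro (_ | p)
    · exact one_mem _
    · simp only [rep]; split_ifs
      · exact (hX _).1
      · exact mul_mem (hX _).1 (hX _).1
  have hsqmd : ∀ a ∈ Q, ∀ b ∈ Q, Md z a b → a * a = b * b := by
    rintro a ha b hb (rfl | rfl)
    · rfl
    · rw [mul_assoc, ← mul_assoc b z, hQc b hb, ← mul_assoc, ← mul_assoc, hz, one_mul]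
  have hrepinj : ∀ c c', Md z (rep c) (rep c') → c = c' := by
    rintro (_ | ⟨⟨i, j⟩, hij⟩) (_ | ⟨⟨k, l⟩, hkl⟩) h <;> simp only [rep] at h
    · rfl
    · exfalso
      split_ifs at h with h'
      · rcases h.symm hz with h | h
        · exact (hX k).2.2.1 h
        · exact (hX k).2.2.2 (h.trans (mul_one z))
      · have := hsqmd _ (one_mem Q) _ (mul_mem (hX k).1 (hX l).1) h
        rw [hXsq k l h', one_mul] at this
        exact hz1 this.symm
    · exfalso
      split_ifs at h with h'
      · rcases h with h | h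
        · exact (hX i).2.2.1 h
        · exact (hX i).2.2.2 (h.trans (mul_one z))
      · have := hsqmd _ (mul_mem (hX i).1 (hX j).1) _ (one_mem Q) h
        rw [hXsq i j h', one_mul] at this
        exact hz1 this
    · split_ifs at h with h1 h2 h2
      · have hik := hXinj _ _ h
        subst h1 h2 hik; rfl
      · exfalso
        have := hsqmd _ (hX i).1 _ (mul_mem (hX k).1 (hX l).1) h
        rw [hXsq k l h2, (hX i).2.1] at this
        exact hz1 this.symm
      · exfalso
        have := hsqmd _ (mul_mem (hX i).1 (hX j).1) _ (hX k).1 h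
        rw [hXsq i j h1, (hX k).2.1] at this
        exact hz1 this
      · by_contra hne
        obtain ⟨σ, hσ1, hσ2⟩ := pair_aux i j k l (lt_of_le_of_ne hij h1) (lt_of_le_of_ne hkl h2)
          (fun heq => hne (congrArg some (Subtype.ext heq)))
        have h3 : Md z (X (app σ i) * X (app σ j)) (X i * X j) := by
          rcases hσ1 with ⟨a, b⟩ | ⟨a, b⟩ <;> rw [a, b]
          · exact Md.refl _ _
          · exact hswap _ (hX j).1 _ (hX i).1
        have h4 : Md z (X (app σ i) * X (app σ j)) (X (app σ k) * X (app σ l)) := by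
          have hc := h.conj _ (hKz _ (helK σ))
          have conjmul : ∀ a b : G, el σ * (a * b) * (el σ)⁻¹ =
            (el σ * a * (el σ)⁻¹) * (el σ * b * (el σ)⁻¹) := fun a b => by group
          rw [conjmul, conjmul] at hc
          exact (((hmm (hX _).1 (helact σ i) (helact σ j)).symm hz).trans hz hc).trans hz
            (hmm (hX _).1 (helact σ k) (helact σ l))
        have h5 : Md z (X (app σ k) * X (app σ l)) (X k * X l) := (h4.symm hz).trans hz (h3.trans hz h)
        rcases hσ2 with ⟨a, b⟩ | ⟨a, b⟩ | ⟨a, b⟩ | ⟨a, b⟩ <;> rw [a] at h5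
        · exact b (hXinj _ _ (h5.cancel_left (hQc _ (hX k).1)))
        · exact b (hXinj _ _ ((((hswap _ (hX l).1 _ (hX _).1).trans hz h5).trans hz
            (hswap _ (hX k).1 _ (hX l).1)).cancel_left (hQc _ (hX l).1)))
        · exact b (hXinj _ _ ((h5.trans hz (hswap _ (hX k).1 _ (hX l).1)).cancel_left (hQc _ (hX l).1)))
        · exact b (hXinj _ _ (((hswap _ (hX k).1 _ (hX _).1).trans hz h5).cancel_left (hQc _ (hX k).1)))
  let zb : Bool → G := fun b => if b then z else 1
  have hzb : ∀ b a, Md z (zb b * a) a := fun b a => by cases b <;> simp [zb, Md]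
  have hzbQ : ∀ b, zb b ∈ Q := fun b => by cases b <;> simp [zb, hzQ]
  have hzbinj : Function.Injective zb := fun a b h => by
    cases a <;> cases b <;> simp [zb, hz1, hz1.symm] at h ⊢
  have hdecomp : ∀ q ∈ Q, ∃ c b, q = zb b * rep c := by
    let Θ : Cls × Bool → Qe := fun r => ⟨zb r.2 * rep r.1, mul_mem (hzbQ _) (hrepQ _)⟩
    have hinj : Function.Injective Θ := by
      rintro ⟨c, a⟩ ⟨c', b⟩ h
      have h' : zb a * rep c = zb b * rep c' := congrArg Subtype.val h
      have hc : c = c' := hrepinj _ _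
        (((hzb a (rep c)).symm hz).trans hz (Md.trans hz (Or.inl h') (hzb b (rep c'))))
      subst hc
      rw [hzbinj (mul_right_cancel h')]
    have hbij := (Fintype.bijective_iff_injective_and_card Θ).2 ⟨hinj, by
      rw [← Nat.card_eq_fintype_card (α := Qe), show Nat.card Qe = 32 from hQ32]; decide +kernel⟩
    intro q hq
    obtain ⟨⟨c, b⟩, h⟩ := hbij.2 ⟨q, hq⟩
    exact ⟨c, b, (congrArg Subtype.val h).symm⟩
  -- exact fixing of the fixed pair
  have hthree : ∀ c : A5, c ^ 3 = 1 → ∀ f, app c f = f → el c * X f * (el c)⁻¹ = X f := by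
    intro c hc f hf
    have h := helact c f
    rw [hf] at h
    rcases h with h | h
    · exact h
    exfalso
    have hz' := hKz _ (helK c)
    have hpow : el c * el c * el c = 1 := by
      rw [← helmul, ← helmul, show c * c * c = c ^ 3 by rw [pow_succ, pow_two], hc, helone]
    have h3 : el c * el c * el c * X f * (el c * el c * el c)⁻¹ = z * X f := by
      calc el c * el c * el c * X f * (el c * el c * el c)⁻¹
          = el c * (el c * (el c * X f * (el c)⁻¹) * (el c)⁻¹) * (el c)⁻¹ := by group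
        _ = el c * (el c * (z * X f) * (el c)⁻¹) * (el c)⁻¹ := by rw [h]
        _ = el c * ((el c * z * (el c)⁻¹) * (el c * X f * (el c)⁻¹)) * (el c)⁻¹ := by group
        _ = el c * (z * (z * X f)) * (el c)⁻¹ := by rw [hz', h]
        _ = z * X f := by rw [← mul_assoc z z, hz, one_mul, h]
    rw [hpow, one_mul, inv_one, mul_one] at h3
    exact hz1 (mul_eq_right.mp h3.symm)
  have helinv : ∀ σ : A5, σ * σ = 1 → (el σ)⁻¹ = el σ := fun σ hσ =>
    inv_eq_of_mul_eq_one_right (by rw [← helmul, hσ, helone])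
  have hfixexact : ∀ σ : A5, σ * σ = 1 → σ ≠ 1 → ∀ f, app σ f = f → el σ * X f * el σ = X f := by
    intro σ hσ hσ1 f hf
    obtain ⟨c, hc, hcf, hd, hdf⟩ := inv_fix_aux σ hσ hσ1 f hf
    have e1 := hthree c hc f hcf
    have e2 := hthree _ hd f hdf
    have hel : el σ = el c * el (c⁻¹ * σ) := by rw [← helmul, mul_inv_cancel_left]
    nth_rw 2 [← helinv σ hσ]
    rw [hel, show el c * el (c⁻¹ * σ) * X f * (el c * el (c⁻¹ * σ))⁻¹ =
      el c * (el (c⁻¹ * σ) * X f * (el (c⁻¹ * σ))⁻¹) * (el c)⁻¹ by group, e2, e1]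
  -- conjugation by an involution
  have hconj_inv : ∀ σ : A5, σ * σ = 1 → σ ≠ 1 → ∀ c b,
      (el σ * (zb b * rep c) * el σ = (zb b * rep c)⁻¹ ↔ ClsFixed σ c) := by
    intro σ hσ hσ1 c b
    have hi := helinv σ hσ
    have hgz : el σ * z * (el σ)⁻¹ = z := hKz _ (helK σ)
    have hzbc : el σ * zb b * (el σ)⁻¹ = zb b := by cases b <;> simp [zb, hgz]
    have hzbc' : ∀ a ∈ Q, zb b * a = a * zb b := fun a ha => by cases b <;> simp [zb, hQc a ha]
    have hzbi : (zb b)⁻¹ = zb b := by cases b <;> simp [zb, inv_eq_of_mul_eq_one_right hz]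
    have hred : el σ * (zb b * rep c) * el σ = (zb b * rep c)⁻¹ ↔
        el σ * rep c * el σ = (rep c)⁻¹ := by
      have e1 : el σ * (zb b * rep c) * el σ = zb b * (el σ * rep c * el σ) := by
        calc el σ * (zb b * rep c) * el σ
            = (el σ * zb b * (el σ)⁻¹) * (el σ * rep c * el σ) := by group
          _ = _ := by rw [hzbc]
      rw [e1, mul_inv_rev, hzbi, ← hzbc' _ (inv_mem (hrepQ c)), mul_left_cancel_iff]
    rw [hred]
    cases c with
    | none => simp [rep, ClsFixed, ← helmul, hσ, helone]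
    | some p =>
      obtain ⟨⟨i, j⟩, hij⟩ := p
      by_cases heq : i = j
      · subst heq
        have hr : rep (some ⟨(i, i), hij⟩) = X i := by simp [rep]
        rw [hr, inv_eq_of_mul_eq_one_right (hX i).2.1]
        simp only [ClsFixed, and_self, or_self]
        constructor
        · intro h
          have h' := helact σ i
          rw [hi, h] at h'
          exact (hXinj _ _ h').symm
        · exact hfixexact σ hσ hσ1 i
      · have hr : rep (some ⟨(i, j), hij⟩) = X i * X j := by simp [rep, heq]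
        rw [hr, mul_inv_rev, inv_eq_of_mul_eq_one_right (hX i).2.1, inv_eq_of_mul_eq_one_right (hX j).2.1]
        simp only [ClsFixed]
        have hcm : el σ * (X i * X j) * el σ = (el σ * X i * el σ) * (el σ * X j * el σ) := by
          calc el σ * (X i * X j) * el σ = (el σ * X i * el σ) * ((el σ)⁻¹ * X j * el σ) := by group
            _ = _ := by rw [hi]
        have hact' : ∀ l, Md z (el σ * X l * el σ) (X (app σ l)) := fun l => by
          have := helact σ l; rwa [hi] at this
        constructor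
        · intro h
          rw [hcm] at h
          have h1 : Md z (X (app σ i) * X (app σ j)) (X i * X j) :=
            ((hmm (hX _).1 (hact' i) (hact' j)).symm hz).trans hz
              (Md.trans hz (Or.inl h) (hswap _ (hX j).1 _ (hX i).1))
          have hne : app σ i ≠ app σ j := fun h' => heq ((σ : Equiv.Perm (Fin 5)).injective h')
          rcases lt_or_gt_of_ne hne with hlt | hlt
          · left
            have h2 : Md z (rep (some ⟨(app σ i, app σ j), hlt.le⟩)) (rep (some ⟨(i, j), hij⟩)) := by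
              simpa [rep, hne, heq] using h1
            simpa using hrepinj (some ⟨(app σ i, app σ j), hlt.le⟩) (some ⟨(i, j), hij⟩) h2
          · right
            have h2 : Md z (rep (some ⟨(app σ j, app σ i), hlt.le⟩)) (rep (some ⟨(i, j), hij⟩)) := by
              simpa [rep, hne.symm, heq] using (hswap _ (hX _).1 _ (hX _).1).trans hz h1
            have := hrepinj (some ⟨(app σ j, app σ i), hlt.le⟩) (some ⟨(i, j), hij⟩) h2
            simp only [Option.some.injEq, Subtype.mk.injEq, Prod.mk.injEq] at this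
            exact ⟨this.2, this.1⟩
        · rintro (⟨hfi, hfj⟩ | ⟨hsi, hsj⟩)
          · exact absurd (inv_unique_fix σ hσ hσ1 i j hfi hfj) heq
          · rw [hcm]
            have hinvol : el σ * (el σ * X i * el σ) * el σ = X i := by
              calc el σ * (el σ * X i * el σ) * el σ = (el σ * el σ) * X i * (el σ * el σ) := by group
                _ = X i := by rw [← helmul, hσ, helone]; group
            have hi' := hact' i
            rw [hsi] at hi'
            rcases hi' with h | h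
            · rw [h] at hinvol ⊢
              rw [hinvol]
            · rw [h] at hinvol ⊢
              have hj : el σ * X j * el σ = z * X i := by
                have : z * (el σ * X j * el σ) = X i := by
                  calc z * (el σ * X j * el σ) = (el σ * z * (el σ)⁻¹) * (el σ * X j * el σ) := by rw [hgz]
                    _ = el σ * (z * X j) * el σ := by group
                    _ = X i := hinvol
                rw [← this, ← mul_assoc, hz, one_mul]
              rw [hj, mul_assoc, ← mul_assoc (X j) z, hQc _ (hX j).1, ← mul_assoc, ← mul_assoc, hz, one_mul]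
  -- when does an involution outside commute with a point
  have hcomm_iff : ∀ σ : A5, σ * σ = 1 → σ ≠ 1 → ∀ c b, ClsFixed σ c → ∀ i b',
      ((zb b' * X i) * (el σ * (zb b * rep c)) = (el σ * (zb b * rep c)) * (zb b' * X i) ↔ app σ i = i) := by
    intro σ hσ hσ1 c b hc i b'
    have hi := helinv σ hσ
    have hgz : el σ * z = z * el σ := hzc _ (Subgroup.mem_sup_left (helK σ))
    have hzall : ∀ (b : Bool) (g : G), g ∈ K ⊔ Q → g * zb b = zb b * g := fun b g hg => by
      cases b <;> simp [zb, hzc g hg]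
    have hKQmem : el σ * rep c ∈ K ⊔ Q :=
      mul_mem (Subgroup.mem_sup_left (helK σ)) (Subgroup.mem_sup_right (hrepQ c))
    have hXm : X i ∈ K ⊔ Q := Subgroup.mem_sup_right (hX i).1
    have hred : (zb b' * X i) * (el σ * (zb b * rep c)) = (el σ * (zb b * rep c)) * (zb b' * X i) ↔
        X i * (el σ * rep c) = (el σ * rep c) * X i := by
      have e0 : el σ * (zb b * rep c) = zb b * (el σ * rep c) := by
        rw [← mul_assoc, hzall b _ (Subgroup.mem_sup_left (helK σ)), mul_assoc]
      rw [e0]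
      have e1 : zb b' * X i * (zb b * (el σ * rep c)) = (zb b' * zb b) * (X i * (el σ * rep c)) := by
        rw [mul_assoc, ← mul_assoc (X i), hzall b _ hXm]; group
      have e2 : zb b * (el σ * rep c) * (zb b' * X i) = (zb b' * zb b) * (el σ * rep c * X i) := by
        rw [mul_assoc, ← mul_assoc (el σ * rep c), hzall b' _ hKQmem]
        rw [show zb b' * zb b = zb b * zb b' by cases b <;> cases b' <;> simp [zb]]
        group
      rw [e1, e2, mul_left_cancel_iff]
    rw [hred]
    constructor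
    · intro h
      have h1 : el σ * (rep c * X i * (rep c)⁻¹) * (el σ)⁻¹ = X i := by
        calc el σ * (rep c * X i * (rep c)⁻¹) * (el σ)⁻¹
            = (el σ * rep c * X i) * (el σ * rep c)⁻¹ := by group
          _ = X i := by rw [← h]; group
      have h2 : Md z (rep c * X i * (rep c)⁻¹) (X i) := by
        rcases hab _ (hrepQ c) _ (hX i).1 with h' | h'
        · exact Or.inl (by rw [h', mul_inv_cancel_right])
        · exact Or.inr (by rw [h', mul_assoc, mul_assoc, mul_inv_cancel, mul_one])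
      have h3 := (h2.conj (el σ) (hKz _ (helK σ))).trans hz (helact σ i)
      rw [h1] at h3
      exact (hXinj _ _ h3).symm
    · intro hf
      have e1 := hfixexact σ hσ hσ1 i hf
      have e1' : el σ * X i = X i * el σ := by
        calc el σ * X i = el σ * X i * el σ * (el σ)⁻¹ := by group
          _ = _ := by rw [e1, hi]
      suffices hr : rep c * X i = X i * rep c by
        rw [← mul_assoc, ← e1', mul_assoc, ← hr, mul_assoc]
      cases c with
      | none => simp [rep]
      | some p =>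
        obtain ⟨⟨j, l⟩, hjl⟩ := p
        by_cases heq : j = l
        · subst heq
          have hji : app σ j = j := by simpa [ClsFixed] using hc
          rw [inv_unique_fix σ hσ hσ1 i j hf hji]
          simp [rep]
        · have hsw : app σ j = l ∧ app σ l = j :=
            hc.resolve_left fun h => heq (inv_unique_fix σ hσ hσ1 j l h.1 h.2)
          have hij : i ≠ j := fun h => heq (by rw [← hsw.1, ← h, hf])
          have hil : i ≠ l := fun h => heq (by rw [← hsw.2, ← h, hf])
          have hji := (hab _ (hX j).1 _ (hX i).1).resolve_left (hnc j i hij.symm)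
          have hli := (hab _ (hX l).1 _ (hX i).1).resolve_left (hnc l i hil.symm)
          simp only [rep, heq, if_false]
          calc X j * X l * X i = X j * (X l * X i) := mul_assoc _ _ _
            _ = (X j * z) * (X i * X l) := by rw [hli]; group
            _ = z * (X j * X i) * X l := by rw [hQc _ (hX j).1]; group
            _ = z * (z * (X i * X j)) * X l := by rw [hji]
            _ = X i * (X j * X l) := by rw [← mul_assoc z z, hz, one_mul, mul_assoc]
  -- uniqueness of decompositions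
  have huniq : ∀ k ∈ K, ∀ k' ∈ K, ∀ q ∈ Q, ∀ q' ∈ Q, k * q = k' * q' → k = k' ∧ q = q' := by
    intro k hk k' hk' q hq q' hq' h
    have h1 : k'⁻¹ * k = q' * q⁻¹ := by rw [eq_mul_inv_iff_mul_eq, mul_assoc, h, inv_mul_cancel_left]
    have hm : k'⁻¹ * k ∈ K ⊓ Q := Subgroup.mem_inf.2 ⟨mul_mem (inv_mem hk') hk, by rw [h1]; exact mul_mem hq' (inv_mem hq)⟩
    rw [hdisj, Subgroup.mem_bot, inv_mul_eq_one] at hm
    subst hm
    exact ⟨rfl, mul_left_cancel h⟩
  -- `z` in the cyclic group of a non-commuting pair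
  have hzmem : ∀ σ : A5, σ * σ = 1 → ∀ x ∈ Q, ∀ i, Md z x (X i) → app σ i ≠ i → ∀ q ∈ Q,
      (el σ * q) * (el σ * q) = 1 → z ∈ Subgroup.zpowers (x * (el σ * q)) := by
    intro σ hσ x hx i hxi hne q hq hy2
    set y := el σ * q with hy
    have hyinv : y⁻¹ = y := inv_eq_of_mul_eq_one_right hy2
    have hx' : y * x * y ∈ Q := by
      nth_rw 2 [← hyinv]
      rw [hy, show el σ * q * x * (el σ * q)⁻¹ = el σ * (q * x * q⁻¹) * (el σ)⁻¹ by group]
      exact hKn _ (helK σ) _ (mul_mem (mul_mem hq hx) (inv_mem hq))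
    have hx'i : Md z (y * x * y) (X (app σ i)) := by
      nth_rw 2 [← hyinv]
      rw [hy, show el σ * q * x * (el σ * q)⁻¹ = el σ * (q * x * q⁻¹) * (el σ)⁻¹ by group]
      have : Md z (q * x * q⁻¹) x := by
        rcases hab q hq x hx with h | h
        · exact Or.inl (by rw [h, mul_inv_cancel_right])
        · exact Or.inr (by rw [h, mul_assoc, mul_assoc, mul_inv_cancel, mul_one])
      exact ((this.trans hz hxi).conj _ (hKz _ (helK σ))).trans hz (helact σ i)
    refine Subgroup.mem_zpowers_iff.2 ⟨(4 : ℕ), ?_⟩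
    rw [zpow_natCast]
    have e : (x * y) ^ 4 = (x * (y * x * y)) * (x * (y * x * y)) := by
      rw [pow_succ, pow_succ, pow_two]; group
    rw [e, hsqmd _ (mul_mem hx hx') _ (mul_mem (hX i).1 (hX _).1) (hmm (hX i).1 hxi hx'i)]
    exact hXsq i _ (Ne.symm hne)
  -- the count
  have hcount : Nat.card ({r : Fin 5 × A5 × Cls //
      r.2.1 * r.2.1 = 1 ∧ r.2.1 ≠ 1 ∧ ClsFixed r.2.1 r.2.2 ∧ app r.2.1 r.1 ≠ r.1} × Bool × Bool) = 960 := by
    rw [Nat.card_prod, count_z, Nat.card_prod]
    simp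
  rw [← hcount]
  symm
  have hy2 : ∀ σ : A5, σ * σ = 1 → ∀ q : G,
      ((el σ * q) * (el σ * q) = 1 ↔ el σ * q * el σ = q⁻¹) := by
    intro σ _ q
    rw [← mul_assoc, mul_eq_one_iff_eq_inv]
  refine Nat.card_eq_of_bijective (fun r => ⟨(zb r.2.1 * X r.1.1.1,
    el r.1.1.2.1 * (zb r.2.2 * rep r.1.1.2.2)), ?_, ?_, ?_⟩) ⟨?_, ?_⟩
  · obtain ⟨h1, h2, h3, h4⟩ := hX r.1.1.1
    refine ⟨mul_mem (hzbQ _) h1, ?_, ?_⟩
    · show zb r.2.1 * X r.1.1.1 * (zb r.2.1 * X r.1.1.1) = 1
      rw [hsqmd _ (mul_mem (hzbQ _) h1) _ h1 (hzb _ _), h2]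
    · intro h
      rcases (hzb r.2.1 (X r.1.1.1)).symm hz with h' | h' <;> simp only at h <;> rw [h] at h'
      · exact h3 h'
      · exact h4 (h'.trans (mul_one z))
  · obtain ⟨hσ, hσ1, hc, -⟩ := r.1.2
    refine ⟨mul_mem (Subgroup.mem_sup_left (helK _))
      (Subgroup.mem_sup_right (mul_mem (hzbQ _) (hrepQ _))), ?_, ?_⟩
    · exact (hy2 _ hσ _).2 ((hconj_inv _ hσ hσ1 _ _).2 hc)
    · intro h
      refine hσ1 (helinj ?_)
      rw [helone]
      have hm : el r.1.1.2.1 ∈ K ⊓ Q := ⟨helK _, by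
        have := mul_mem h (inv_mem (mul_mem (hzbQ r.2.2) (hrepQ r.1.1.2.2)))
        rwa [mul_inv_cancel_right] at this⟩
      rwa [hdisj, Subgroup.mem_bot] at hm
  · obtain ⟨hσ, hσ1, hc, hne⟩ := r.1.2
    exact hzmem _ hσ _ (mul_mem (hzbQ _) (hX _).1) _ (hzb _ _) hne _ (mul_mem (hzbQ _) (hrepQ _))
      ((hy2 _ hσ _).2 ((hconj_inv _ hσ hσ1 _ _).2 hc))
  · rintro ⟨⟨⟨i, σ, c⟩, _⟩, a, b⟩ ⟨⟨⟨i', σ', c'⟩, _⟩, a', b'⟩ h
    have e1 := congrArg (fun q => (Subtype.val q).1) h
    have e2 := congrArg (fun q => (Subtype.val q).2) h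
    simp only at e1 e2
    obtain ⟨e3, e4⟩ := huniq _ (helK σ) _ (helK σ') _ (mul_mem (hzbQ b) (hrepQ c)) _
      (mul_mem (hzbQ b') (hrepQ c')) e2
    obtain rfl := helinj e3
    obtain rfl : c = c' := hrepinj _ _
      (((hzb b (rep c)).symm hz).trans hz (Md.trans hz (Or.inl e4) (hzb b' (rep c'))))
    obtain rfl : i = i' := hXinj _ _
      (((hzb a (X i)).symm hz).trans hz (Md.trans hz (Or.inl e1) (hzb a' (X i'))))
    obtain rfl := hzbinj (mul_right_cancel e1)
    obtain rfl := hzbinj (mul_right_cancel e4)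
    rfl
  · rintro ⟨⟨x, y⟩, ⟨hx, hx2, hx1⟩, ⟨hy, hy22, hyQ⟩, hzxy⟩
    simp only at hx hx2 hx1 hy hy22 hyQ hzxy
    obtain ⟨k, hk, q, hq, rfl⟩ : ∃ k ∈ K, ∃ q ∈ Q, k * q = y := by
      have hn : K ≤ Subgroup.normalizer (Q : Set G) := hKQ
      have := Subgroup.coe_mul_of_left_le_normalizer_right K Q hn
      exact Set.mem_mul.1 (this ▸ hy)
    obtain ⟨σ, rfl⟩ := helsurj k hk
    have hσ2 : σ * σ = 1 := by
      refine helinj ?_
      rw [helmul, helone]
      have h1 : el σ * el σ ∈ K ⊓ Q := ⟨mul_mem (helK σ) (helK σ), by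
        have e0 : el σ * el σ = el σ * q⁻¹ * (el σ)⁻¹ * ((el σ * q) * (el σ * q)) * q⁻¹ := by group
        rw [e0, hy22, mul_one]
        exact Q.mul_mem (hKn _ (helK σ) _ (Q.inv_mem hq)) (Q.inv_mem hq)⟩
      rwa [hdisj, Subgroup.mem_bot] at h1
    have hσ1 : σ ≠ 1 := fun h => hyQ (by rw [h, helone, one_mul]; exact hq)
    obtain ⟨c, b, rfl⟩ := hdecomp q hq
    have hc : ClsFixed σ c := (hconj_inv σ hσ2 hσ1 c b).1 ((hy2 σ hσ2 _).1 hy22)
    have hxz : x ≠ z := by
      intro hxe
      subst x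
      set y := el σ * (zb b * rep c)
      have hy' : Commute z y := (hzc y hy).symm
      have hsq' : (z * y) * (z * y) = 1 := by
        rw [← pow_two, hy'.mul_pow, pow_two, pow_two, hz, hy22, one_mul]
      obtain ⟨n, hn⟩ := hzxy
      simp only at hn
      rcases Int.even_or_odd n with ⟨j, rfl⟩ | ⟨j, rfl⟩
      · rw [← two_mul, zpow_mul, zpow_two, hsq', one_zpow] at hn; exact hz1 hn.symm
      · rw [zpow_add, zpow_mul, zpow_two, hsq', one_zpow, one_mul, zpow_one, mul_eq_left] at hn
        exact hyQ (hn ▸ one_mem Q)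
    obtain ⟨i, hi⟩ := hpoint x ((hS x).2 ⟨hx, hx2, hx1, hxz⟩)
    obtain ⟨a, rfl⟩ : ∃ a, x = zb a * X i := by
      rcases hi with h | h
      · exact ⟨false, by simpa [zb] using h⟩
      · exact ⟨true, by simpa [zb] using h⟩
    have hne : app σ i ≠ i := by
      intro hf
      have hcm := (hcomm_iff σ hσ2 hσ1 c b hc i a).2 hf
      set y := el σ * (zb b * rep c)
      have hsq' : (zb a * X i * y) * (zb a * X i * y) = 1 := by
        rw [← pow_two, (show Commute (zb a * X i) y from hcm).mul_pow, pow_two, pow_two, hx2, hy22, one_mul]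
      obtain ⟨n, hn⟩ := hzxy
      simp only at hn
      rcases Int.even_or_odd n with ⟨j, rfl⟩ | ⟨j, rfl⟩
      · rw [← two_mul, zpow_mul, zpow_two, hsq', one_zpow] at hn; exact hz1 hn.symm
      · rw [zpow_add, zpow_mul, zpow_two, hsq', one_zpow, one_mul, zpow_one] at hn
        refine hyQ ?_
        have hyx : y = (zb a * X i)⁻¹ * z := by rw [← hn, inv_mul_cancel_left]
        rw [hyx]
        exact mul_mem (inv_mem hx) hzQ
    exact ⟨(⟨(i, σ, c), hσ2, hσ1, hc, hne⟩, a, b), rfl⟩

end CfsgLib.HJOrder
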